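import Mathlib
import Cfsg.Agent.H429.Suborbit
set_option linter.all false

/-!
# Primitive groups with a suborbit on which the two-point stabiliser induces a group with trivial Fitting
subgroup
-/

set_option autoImplicit false
set_option linter.unusedSectionVars false

namespace Cfsg.Agent.H429.Suborbit

open Subgroup Cfsg MulAction
open Cfsg.Agent.H429.TW
open Cfsg.Agent.TwoFusion.FStarControl

variable {G Ω : Type*} [Group G] [MulAction G Ω]

section ff0

variable [Finite G]

/-- A normalizer normalizes `O_p`. -/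
theorem normalizer_le_normalizer_OO (p : ℕ) (X : Subgroup G) :
    normalizer (X : Set G) ≤ normalizer (OO p X : Set G) := by
  refine le_normalizer_of_conj ?_
  intro g hg x hx
  have h1 : X.map (MulAut.conj g).toMonoidHom = X := by
    ext y
    rw [mem_map_equiv, MulAut.conj_symm_apply]
    have := mem_normalizer_iff.mp (inv_mem hg) y
    rw [inv_inv] at this
    exact this.symm
  have h2 := mem_map_of_mem (MulAut.conj g).toMonoidHom hx
  rwa [map_conj_OO, h1] at h2

end ff0

section ff

variable [Finite G] [FaithfulSMul G Ω] [Finite Ω]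

/-- The permutation group induced on the suborbit by the two-point stabiliser. -/
noncomputable abbrev Ind (G : Type*) {Ω : Type*} [Group G] [MulAction G Ω] (a b : Ω) :
    Subgroup (Equiv.Perm (orbit (stabilizer G a) b)) :=
  ((stabilizer G b).subgroupOf (stabilizer G a)).map
    (toPermHom (stabilizer G a) (orbit (stabilizer G a) b))

/-- A normal `p`-subgroup of the two-point stabiliser is in the kernel. -/
theorem le_K_of_isPGroup {a b : Ω} (hF : fittingSubgroup (Ind G a b) = ⊥) {p : ℕ} [Fact p.Prime]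
    {P : Subgroup G} (hP : IsPGroup p P) (hPD : P ≤ stabilizer G a ⊓ stabilizer G b)
    (hn : stabilizer G a ⊓ stabilizer G b ≤ normalizer (P : Set G)) : P ≤ K a b := by
  set φ := toPermHom (stabilizer G a) (orbit (stabilizer G a) b) with hφ
  set D' : Subgroup (stabilizer G a) := (stabilizer G b).subgroupOf (stabilizer G a) with hD'
  set P' : Subgroup (stabilizer G a) := P.subgroupOf (stabilizer G a) with hP'
  have h1 : P' ≤ D' := by
    intro x hx
    exact (hPD hx).2
  have h2 : D' ≤ normalizer (P' : Set (stabilizer G a)) := by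
    intro x hx
    rw [mem_normalizer_iff]
    intro y
    exact mem_normalizer_iff.mp (hn ⟨x.2, hx⟩) y
  have h3 : P'.map φ ≤ D'.map φ := map_mono h1
  have h4 : D'.map φ ≤ normalizer ((P'.map φ : Subgroup _) : Set _) :=
    (map_mono h2).trans (le_normalizer_map _)
  have h5 : ((P'.map φ).subgroupOf (D'.map φ)).Normal := by
    rw [normal_subgroupOf_iff_le_normalizer h3]; exact h4
  have h6 : IsPGroup p ((P'.map φ).subgroupOf (D'.map φ)) := by
    refine IsPGroup.comap_of_injective ?_ _ (subtype_injective _)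
    exact (hP.comap_of_injective (stabilizer G a).subtype (subtype_injective _)).map φ
  have h7 : (P'.map φ).subgroupOf (D'.map φ) ≤ fittingSubgroup (D'.map φ) :=
    (Cfsg.Agent.Lib.Cores.le_pCore h5 h6).trans (Cfsg.Agent.Lib.Cores.pCore_le_fittingSubgroup p)
  have h8 : P'.map φ = ⊥ := by
    rw [hF, le_bot_iff, subgroupOf_eq_bot] at h7
    exact h7.eq_bot_of_le h3
  intro x hx
  have hxa : x ∈ stabilizer G a := (hPD hx).1
  rw [← ker_toPermHom]
  refine ⟨⟨x, hxa⟩, ?_, rfl⟩
  have h9 : φ ⟨x, hxa⟩ ∈ P'.map φ := mem_map_of_mem _ (mem_subgroupOf.mpr hx)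
  rw [h8, mem_bot] at h9
  exact h9

/-- A `p`-group which is not self-normalizing: a subgroup `V` normalized by `P`, with `N_V(P) ≤ P`, is in `P`. -/
theorem le_of_normalizer_inf_le {p : ℕ} [Fact p.Prime] {P V : Subgroup G} (hP : IsPGroup p P)
    (hV : IsPGroup p V) (hPV : P ≤ normalizer (V : Set G)) (h : normalizer (P : Set G) ⊓ V ≤ P) :
    V ≤ P := by
  have h1 : IsPGroup p (P ⊔ V : Subgroup G) := hP.to_sup_of_normal_right' hV hPV
  by_contra hcon
  have h2 : P < P ⊔ V := lt_of_le_of_ne le_sup_left fun e => hcon (e ▸ le_sup_right)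
  have h3 : P.subgroupOf (P ⊔ V) < ⊤ := by
    rw [lt_top_iff_ne_top, Ne, subgroupOf_eq_top]
    exact fun h => hcon (le_sup_right.trans h)
  have hnil : Group.IsNilpotent (P ⊔ V : Subgroup G) := h1.isNilpotent
  have h4 := Group.normalizerCondition_of_isNilpotent (G := (P ⊔ V : Subgroup G)) _ h3
  obtain ⟨x, hx1, hx2⟩ := SetLike.exists_of_lt h4
  have hx3 : (x : G) ∈ ((P ⊔ V : Subgroup G) : Set G) := x.2
  rw [coe_mul_of_left_le_normalizer_right P V hPV] at hx3
  obtain ⟨y, hy, v, hv, hyv⟩ := hx3
  have hxP : (x : G) ∈ normalizer (P : Set G) := by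
    rw [mem_normalizer_iff]
    intro z
    have h5 := mem_normalizer_iff.mp hx1
    constructor
    · intro hz
      exact (h5 ⟨z, mem_sup_left hz⟩).mp hz
    · intro hz
      have hz' : z ∈ (P ⊔ V : Subgroup G) := by
        have e : z = (x : G)⁻¹ * (x * z * (x : G)⁻¹) * x := by group
        rw [e]
        exact mul_mem (mul_mem (inv_mem x.2) (mem_sup_left hz)) x.2
      exact (h5 ⟨z, hz'⟩).mpr hz
  apply hx2
  have hvP : v ∈ P := by
    refine h ⟨?_, hv⟩
    have e : v = y⁻¹ * (x : G) := by rw [← hyv]; group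
    rw [e]
    exact (normalizer (P : Set G)).mul_mem
      ((normalizer (P : Set G)).inv_mem (le_normalizer hy)) hxP
  rw [mem_subgroupOf, ← hyv]
  exact mul_mem hy hvP

/-- **Fitting subgroup of the two-point stabiliser.** -/
theorem OO_inf_eq_bot (hprim : IsPreprimitive G Ω) {a b : Ω}
    (h2 : 2 ≤ Nat.card (orbit (stabilizer G a) b))
    (hF : fittingSubgroup (Ind G a b) = ⊥) (p : ℕ) [hp : Fact p.Prime] :
    OO p (stabilizer G a ⊓ stabilizer G b) = ⊥ := by
  have hnt : Nontrivial Ω := ⟨a, b, ne_of_two_le h2⟩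
  set A := stabilizer G a with hA
  set B := stabilizer G b with hB
  set P := OO p (A ⊓ B) with hPdef
  have hPD : P ≤ A ⊓ B := OO_le p _
  have hPp : IsPGroup p P := OO_isPGroup p _
  have hPn : A ⊓ B ≤ normalizer (P : Set G) := le_normalizer_OO p _
  have hPK : P ≤ K a b := le_K_of_isPGroup hF hPp hPD hPn
  have hKD : (K a b : Subgroup G) ≤ A ⊓ B := le_inf (K_le_left a b) (K_le_right a b)
  by_contra hne
  -- `P` is `O_p` of the kernel
  have hPO : P = OO p (K a b) := by
    apply le_antisymm
    · exact le_OO p hPp hPK (hKD.trans hPn)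
    · refine le_OO p (OO_isPGroup p _) ((OO_le p _).trans hKD) ?_
      exact (inf_le_left.trans (le_normalizer_K a b)).trans (normalizer_le_normalizer_OO p _)
  have hAP : A ≤ normalizer (P : Set G) := by
    rw [hPO]
    exact (le_normalizer_K a b).trans (normalizer_le_normalizer_OO p _)
  have hNA : normalizer (P : Set G) ≤ A :=
    normalizer_le hprim a P (hPD.trans inf_le_left) hne hAP
  have hVP : OO p B ≤ P := by
    refine le_of_normalizer_inf_le hPp (OO_isPGroup p B)
      ((hPD.trans inf_le_right).trans (le_normalizer_OO p B)) ?_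
    have h3 : A ⊓ OO p B ≤ P := by
      refine le_OO p ((OO_isPGroup p B).to_le inf_le_right) ?_ ?_
      · exact inf_le_inf_left _ (OO_le p B)
      · refine le_normalizer_of_conj ?_
        intro g hg x hx
        obtain ⟨hg1, hg2⟩ := mem_inf.mp hg
        obtain ⟨hx1, hx2⟩ := mem_inf.mp hx
        exact mem_inf.mpr ⟨A.mul_mem (A.mul_mem hg1 hx1) (A.inv_mem hg1),
          (mem_normalizer_iff.mp (le_normalizer_OO p B hg2) x).mp hx2⟩
    exact (inf_le_inf_right _ hNA).trans h3
  have hPA : P ≤ OO p A := le_OO p hPp (hPD.trans inf_le_left) hAP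
  have hcard : Nat.card (OO p A) = Nat.card (OO p B) := by
    obtain ⟨g, hg⟩ := exists_smul_eq G a b
    have h3 : A.map (MulAut.conj g).toMonoidHom = B := by
      rw [hA, hB, ← hg, stabilizer_smul_eq_stabilizer_map_conj]
    rw [← h3, ← map_conj_OO, card_map_of_injective (MulAut.conj g).injective]
  have h4 : OO p B = OO p A := by
    refine eq_of_le_of_card_ge (hVP.trans hPA) hcard.le
  have h5 : OO p B = P := le_antisymm hVP (h4 ▸ hPA)
  have h6 : B ≤ A := by
    have := le_normalizer_OO p B
    rw [h5] at this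
    exact this.trans hNA
  apply stabilizer_ne_of_two_le h2
  exact (eq_of_le_of_card_ge h6 (card_stabilizer_eq a b).le).symm

theorem fitting_inf_eq_bot (hprim : IsPreprimitive G Ω) {a b : Ω}
    (h2 : 2 ≤ Nat.card (orbit (stabilizer G a) b))
    (hF : fittingSubgroup (Ind G a b) = ⊥) :
    fittingSubgroup ↥(stabilizer G a ⊓ stabilizer G b) = ⊥ := by
  rw [Cfsg.Agent.Lib.Cores.fittingSubgroup_eq_iSup_pCore, iSup_eq_bot]
  intro p
  have := Fact.mk p.2
  exact (map_eq_bot_iff_of_injective _ (subtype_injective _)).mp (OO_inf_eq_bot hprim h2 hF p)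

/-- If `F*(G_a)` is a `p`-group, `G_a` is faithful on the suborbit. -/
theorem K_eq_bot_of_genFitting_eq (hprim : IsPreprimitive G Ω) {a b : Ω}
    (h2 : 2 ≤ Nat.card (orbit (stabilizer G a) b))
    (hF : fittingSubgroup (Ind G a b) = ⊥) (p : ℕ) [hp : Fact p.Prime]
    (h : generalizedFittingSubgroup (stabilizer G a) = pCore p (stabilizer G a)) :
    (K a b : Subgroup G) = ⊥ := by
  set A := stabilizer G a with hA
  set B := stabilizer G b with hB
  have hKD : (K a b : Subgroup G) ≤ A ⊓ B := le_inf (K_le_left a b) (K_le_right a b)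
  have h3 : OO p A ⊓ B ≤ OO p (A ⊓ B) := by
    refine le_OO p ((OO_isPGroup p A).to_le inf_le_left) (inf_le_inf_right _ (OO_le p A)) ?_
    refine le_normalizer_of_conj ?_
    intro g hg x hx
    obtain ⟨hg1, hg2⟩ := mem_inf.mp hg
    obtain ⟨hx1, hx2⟩ := mem_inf.mp hx
    exact mem_inf.mpr ⟨(mem_normalizer_iff.mp (le_normalizer_OO p A hg1) x).mp hx1,
      B.mul_mem (B.mul_mem hg2 hx2) (B.inv_mem hg2)⟩
  rw [OO_inf_eq_bot hprim h2 hF p, le_bot_iff] at h3
  have h4 : (K a b : Subgroup G) ⊓ OO p A = ⊥ := by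
    rw [eq_bot_iff, ← h3, inf_comm]
    exact inf_le_inf_left _ (hKD.trans inf_le_right)
  -- everything in `A`
  set K' := (K a b : Subgroup G).subgroupOf A with hK'
  have hK'n : K'.Normal := by
    rw [hK', normal_subgroupOf_iff_le_normalizer (K_le_left a b)]
    exact le_normalizer_K a b
  have hOn : (pCore p A).Normal := Cfsg.Agent.Lib.Cores.pCore_normal p
  have h5 : K' ⊓ pCore p A = ⊥ := by
    rw [eq_bot_iff]
    rintro x ⟨hx1, hx2⟩
    have : (x : G) ∈ (K a b : Subgroup G) ⊓ OO p A := ⟨hx1, ⟨x, hx2, rfl⟩⟩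
    rw [h4, mem_bot] at this
    exact Subtype.ext this
  have h6 : K' ≤ centralizer (pCore p A : Set A) := by
    intro x hx
    rw [mem_centralizer_iff]
    intro y hy
    exact (commute_of_normal_of_disjoint K' (pCore p A) hK'n hOn (disjoint_iff.mpr h5) x y hx hy).symm
  have h7 : K' ≤ pCore p A := by
    rw [← h] at h6
    have h8 := h6.trans (Cfsg.Agent.Lib.GenFitting.centralizer_genFitting_le (G := A))
    rwa [h] at h8
  have h9 : K' = ⊥ := by
    rw [eq_bot_iff, ← h5]
    exact le_inf le_rfl h7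
  rw [hK', subgroupOf_eq_bot] at h9
  exact h9.eq_bot_of_le (K_le_left a b)

theorem card_dvd_of_fitting (hprim : IsPreprimitive G Ω) {a b : Ω}
    (h2 : 2 ≤ Nat.card (orbit (stabilizer G a) b))
    (hF : fittingSubgroup (Ind G a b) = ⊥) :
    Nat.card (stabilizer G a) ∣ Nat.factorial (Nat.card (orbit (stabilizer G a) b)) *
      (Nat.factorial (Nat.card (orbit (stabilizer G a) b) - 1)) ^
        (Nat.card (orbit (stabilizer G a) b)) := by
  by_cases h : ∀ q : ℕ, q.Prime → generalizedFittingSubgroup (stabilizer G a) ≠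
      pCore q (stabilizer G a)
  · exact card_dvd hprim h2 h
  · push Not at h
    obtain ⟨q, hq, h⟩ := h
    have := Fact.mk hq
    have h1 := card_dvd_factorial_mul (G := G) a b
    rw [K_eq_bot_of_genFitting_eq hprim h2 hF q h, card_bot, mul_one] at h1
    exact h1.mul_right _

end ff

end Cfsg.Agent.H429.Suborbit
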